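import Cfsg.Agent.Lib.SpEight.Lower

/-!
# Sums of translates: multiplicity of the eigenvalue one
-/

set_option autoImplicit false
set_option linter.unusedSectionVars false
set_option linter.unusedVariables false
set_option linter.unusedSimpArgs false

namespace Cfsg.Agent.Lib.SpEight

open Module QuadraticMap Cfsg Polynomial
open Cfsg.Agent.Lib.Linalg.OrthModels Cfsg.Agent.Lib.Classical.Witt.Hyp
open Cfsg.Agent.Lib.Classical.Orth.Basic Cfsg.Agent.Lib.Classical.Orth.CartanDieudonne
open Cfsg.Agent.Lib.Classical.Spectra.Bridge Cfsg.Agent.Lib.Classical.Symp.OrdModels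

section Chain

variable {K V : Type*} [Field K] [AddCommGroup V] [Module K V] [FiniteDimensional K V]

/-- A long chain under a nilpotent operator forces the kernels to grow. -/
theorem chain_ker (u : Module.End K V) (w : V) (n : ℕ) (h1 : (u ^ (n + 1)) w = 0) (h2 : (u ^ n) w ≠ 0) :
    finrank K (LinearMap.ker u) + n ≤ finrank K (LinearMap.ker (u ^ (n + 1))) := by
  have key : ∀ j, j ≤ n → finrank K (LinearMap.ker u) + j ≤ finrank K (LinearMap.ker (u ^ (j + 1))) := by
    intro j
    induction j with
    | zero =>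
      intro _
      rw [add_zero, zero_add, pow_one]
    | succ j ih =>
      intro hj
      have h3 := ih (by omega)
      have hlt : LinearMap.ker (u ^ (j + 1)) < LinearMap.ker (u ^ (j + 1 + 1)) := by
        refine lt_of_le_of_ne ?_ ?_
        · intro x hx
          rw [LinearMap.mem_ker] at hx ⊢
          rw [pow_succ', Module.End.mul_apply, hx, map_zero]
        · intro he
          have hz : (u ^ (n - (j + 1))) w ∈ LinearMap.ker (u ^ (j + 1 + 1)) := by
            rw [LinearMap.mem_ker, ← Module.End.mul_apply, ← pow_add]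
            have : j + 1 + 1 + (n - (j + 1)) = n + 1 := by omega
            rw [this, h1]
          rw [← he, LinearMap.mem_ker, ← Module.End.mul_apply, ← pow_add] at hz
          have : j + 1 + (n - (j + 1)) = n := by omega
          rw [this] at hz
          exact h2 hz
      have h5 := Submodule.finrank_lt_finrank_of_lt hlt
      omega
  exact key n le_rfl

end Chain

section Mult

variable {F V : Type*} [Field F] [Fintype F] [CharP F 2] [AddCommGroup V] [Module F V] [FiniteDimensional F V]

/-- The sum of translates and the multiplicity of the eigenvalue one. -/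
theorem mult_gt (T : Module.End F V) (hev : Even (finrank F (fixS T))) {o c m₀ : ℕ} (ho : o = 2 ^ c * m₀)
    (hT : T ^ o = 1) (v : V) (hv : ∑ i ∈ Finset.range o, (T ^ i) v ≠ 0) :
    2 ^ c < T.charpoly.rootMultiplicity 1 := by
  classical
  haveI : Fact (Nat.Prime 2) := ⟨Nat.prime_two⟩
  set n : ℕ := 2 ^ c with hn
  have hn1 : 1 ≤ n := Nat.one_le_two_pow
  let G : F[X] := ∑ i ∈ Finset.range o, X ^ i
  let Ψ : F[X] := ∑ i ∈ Finset.range m₀, X ^ i
  have hG : (X - 1 : F[X]) * G = X ^ o - 1 := mul_geom_sum _ _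
  have hΨ : (X - 1 : F[X]) * Ψ = X ^ m₀ - 1 := mul_geom_sum _ _
  have hpow : (X - 1 : F[X]) ^ n * Ψ ^ n = X ^ o - 1 := by
    rw [← mul_pow, hΨ, hn, sub_pow_char_pow, one_pow, ← pow_mul, ho, mul_comm]
  have hGf : G = (X - 1 : F[X]) ^ (n - 1) * Ψ ^ n := by
    have hne : (X - 1 : F[X]) ≠ 0 := by
      simpa using X_sub_C_ne_zero (1 : F)
    apply mul_left_cancel₀ hne
    rw [hG, ← hpow, ← mul_assoc, ← pow_succ', Nat.sub_add_cancel hn1]
  set u : Module.End F V := T - 1 with hu
  have hae : aeval T (X - 1 : F[X]) = u := by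
    simp [hu]
  have haeG : ∀ x : V, aeval T G x = ∑ i ∈ Finset.range o, (T ^ i) x := by
    intro x
    simp only [G, map_sum, map_pow, aeval_X, LinearMap.sum_apply]
  set w : V := aeval T (Ψ ^ n) v with hw
  have h1 : (u ^ (n - 1)) w ≠ 0 := by
    intro e
    apply hv
    rw [← haeG, hGf, map_mul, map_pow, hae, Module.End.mul_apply]
    exact e
  have h2 : (u ^ (n - 1 + 1)) w = 0 := by
    rw [Nat.sub_add_cancel hn1, hw, ← Module.End.mul_apply]
    have h3 : u ^ n * aeval T (Ψ ^ n) = aeval T (X ^ o - 1 : F[X]) := by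
      rw [← hpow, map_mul, map_pow, map_pow, hae]
    rw [h3, map_sub, map_pow, aeval_X, map_one, hT, sub_self]
    rfl
  have hc := chain_ker u w (n - 1) h2 h1
  rw [Nat.sub_add_cancel hn1] at hc
  have hle : finrank F (LinearMap.ker (u ^ n)) ≤ T.charpoly.rootMultiplicity 1 := by
    have h3 := LinearMap.finrank_genEigenspace_le T (1 : F) n
    have h4 : (T.genEigenspace 1 n : Submodule F V) = LinearMap.ker (u ^ n) := by
      ext x
      rw [Module.End.mem_genEigenspace_nat, hu, one_smul]
    rwa [h4] at h3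
  have hfix : fixS T = LinearMap.ker u := rfl
  have hpos : finrank F (LinearMap.ker u) ≠ 0 := by
    intro e
    have h3 := Submodule.finrank_eq_zero.1 e
    apply h1
    have h4 : (u ^ (n - 1)) w ∈ LinearMap.ker u := by
      rw [LinearMap.mem_ker, ← Module.End.mul_apply, ← pow_succ']
      exact h2
    rw [h3] at h4
    exact (Submodule.mem_bot F).1 h4
  rw [hfix] at hev
  have h5 : 2 ≤ finrank F (LinearMap.ker u) := by
    obtain ⟨t, ht⟩ := hev
    omega
  omega

end Mult

section Polar

open scoped Matrix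

variable {ι : Type} [Fintype ι] [DecidableEq ι] {F : Type*} [Field F] [Fintype F] [CharP F 2]

/-- An isometry preserves the matrix of the polar form. -/
theorem mat_table_iso (hc : Fintype.card ι = 8) (Q : QuadraticForm F (ι → F)) (hQ : PolarNondeg Q)
    (g : ↥(isometryGroup F (⇑Q))) :
    ∃ A a k : ℕ, Odd A ∧ ((g : GL ι F) : Matrix ι ι F) ^ (2 ^ a * A) = 1 ∧ 2 * k ≤ 2 ^ a ∧
      ((g : GL ι F) : Matrix ι ι F).charpoly.rootMultiplicity 1 = 2 * k ∧
      ∃ N, IsL (Fintype.card F) N ∧ 2 ^ a * A ∣ N := by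
  set M : Matrix ι ι F := ((g : GL ι F) : Matrix ι ι F) with hM
  set P : Matrix ι ι F := LinearMap.BilinForm.toMatrix' (polarBilin Q) with hP
  have hB : ∀ v w, polarBilin Q v w = v ⬝ᵥ (P *ᵥ w) := by
    intro v w
    have h1 : Matrix.toBilin' P = polarBilin Q := Matrix.toBilin'_toMatrix' _
    rw [← h1, Matrix.toBilin'_apply']
  have hPdet : IsUnit P.det := by
    apply isUnit_iff_ne_zero.2
    intro h0
    obtain ⟨v, hv0, hv⟩ := Matrix.exists_mulVec_eq_zero_iff.2 h0
    apply hv0
    apply hQ
    intro y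
    rw [polar_comm]
    have := hB y v
    rw [hv] at this
    simpa using this
  have hpres : M.transpose * P * M = P := by
    apply (Matrix.toBilin' (R₁ := F) (n := ι)).injective
    apply LinearMap.ext₂
    intro v w
    rw [Matrix.toBilin'_apply', Matrix.toBilin'_apply', ← hB]
    have h3 : v ⬝ᵥ ((M.transpose * P * M) *ᵥ w) = (M *ᵥ v) ⬝ᵥ (P *ᵥ (M *ᵥ w)) := by
      rw [Matrix.mul_assoc, ← Matrix.mulVec_mulVec, ← Matrix.mulVec_mulVec, Matrix.dotProduct_mulVec,
        Matrix.vecMul_transpose]
    rw [h3, ← hB, polarBilin_apply_apply]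
    exact polar_act g v w
  exact mat_table hc M P hPdet hpres

end Polar

end Cfsg.Agent.Lib.SpEight
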