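import Cfsg.Agent.Lib.SpEight.OmegaA
import Cfsg.Agent.Lib.Unrec4.Semi

/-!
# Groups `V^s ⋊ Ω⁻₈(q)` with the spectrum of `Sp₈(q)`, `q` even
-/

set_option autoImplicit false
set_option linter.unusedSectionVars false
set_option linter.unusedVariables false
set_option linter.unusedSimpArgs false

namespace Cfsg.Agent.Lib.SpEight

open Module QuadraticMap Cfsg
open Cfsg.Agent.Lib.Linalg.OrthModels Cfsg.Agent.Lib.Classical.Witt.Hyp
open Cfsg.Agent.Lib.Classical.Orth.Basic Cfsg.Agent.Lib.Classical.Orth.CartanDieudonne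
open Cfsg.Agent.Lib.Classical.Orth.Dickson
open Cfsg.Agent.Lib.Classical.Spectra.Bridge Cfsg.Agent.Lib.Classical.Symp.OrdModels
open Cfsg.Agent.Lib.Unrec4 Cfsg.Agent.Lib.TruncRee

section Elt

variable {V L : Type*} [AddCommGroup V] [_root_.Group L] [Finite L] {act : L →* AddMonoid.End V} {s : ℕ}

/-- A nonvanishing sum of translates doubles the order. -/
theorem orderOf_elt_double (hs : 1 ≤ s) (he : ∀ v : V, 2 • v = 0) {k : L} {v : V}
    (hS : sumS act k (orderOf k) v ≠ 0) : orderOf (elt act s v k) = 2 * orderOf k := by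
  set x := elt act s v k with hx
  have ho : 0 < orderOf k := orderOf_pos k
  have h1 : x ^ (orderOf k * 2) = 1 := pow_of_exp he x _ (by rw [hx, elt_right]; exact pow_orderOf_eq_one k)
  have h2 : orderOf k ∣ orderOf x := by
    apply orderOf_dvd_of_pow_eq_one
    have h3 := congrArg SemidirectProduct.right (pow_orderOf_eq_one x)
    rw [right_pow, hx, elt_right] at h3
    exact h3
  obtain ⟨j, hj⟩ := h2
  have h3 : orderOf x ∣ orderOf k * 2 := orderOf_dvd_of_pow_eq_one h1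
  rw [hj] at h3
  have h4 : j ∣ 2 := (Nat.mul_dvd_mul_iff_left ho).1 h3
  have h5 : j ≠ 1 := by
    rintro rfl
    apply hS
    have h6 : x ^ orderOf k = 1 := by
      rw [← mul_one (orderOf k), ← hj]
      exact pow_orderOf_eq_one x
    have h7 := toAdd_left_pow x (orderOf k) ⟨0, hs⟩
    rw [h6, hx, elt_right, elt_left] at h7
    rw [← h7]
    rfl
  have h6 : j = 1 ∨ j = 2 := (Nat.dvd_prime Nat.prime_two).1 h4
  rcases h6 with h6 | h6
  · exact absurd h6 h5
  · rw [hj, h6, mul_comm]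

end Elt

section Omega

variable {ι : Type} [Fintype ι] [DecidableEq ι] {F : Type*} [Field F] [Fintype F] [CharP F 2]

theorem fixS_Mat (Q : QuadraticForm F (ι → F)) (g : ↥(isometryGroup F (⇑Q))) : fixS (Mat Q g) = fixSpace g := by
  ext x
  rw [mem_fixS, mem_fixSpace, Mat_apply]

/-- Membership in `Ω` by the parity of the fixed space, in even dimension. -/
theorem mem_omega_iff_even (Q : QuadraticForm F (ι → F)) (hQ : (polarBilin Q).Nondegenerate) (hc : Fintype.card ι = 8)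
    (g : ↥(isometryGroup F (⇑Q))) : g ∈ Cfsg.Omega F (⇑Q) ↔ Even (finrank F (fixS (Mat Q g))) := by
  have hF : (∃ c : F, c ≠ 0 ∧ c ≠ 1) ∨ Fintype.card ι ≠ 4 := Or.inr (by omega)
  rw [mem_omega_iff_char_two hQ hF, dicksonHom_apply, dicksonSign, hc, fixS_Mat, neg_one_pow_eq_one_iff_even (by decide)]
  unfold fixDim
  rw [Nat.even_add]
  exact ⟨fun h => h.2 (by decide), fun h => ⟨fun _ => by decide, fun _ => h⟩⟩

end Omega

section Group

variable {F : Type} [Field F] [Fintype F] [CharP F 2] {a b : F}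

theorem card_idx : Fintype.card ((Fin 3 ⊕ Fin 3) ⊕ Fin 2) = 8 := by simp

/-- The natural module. -/
abbrev W8 (F : Type) [Field F] := (Fin 3 ⊕ Fin 3) ⊕ Fin 2 → F

/-- The group `Ω⁻₈(q)`. -/
abbrev L8 (a b : F) := ↥(Cfsg.Omega F (⇑(minusQ 3 F a b)))

/-- The action of `Ω⁻₈(q)` on its natural module. -/
noncomputable def actO (a b : F) : L8 a b →* AddMonoid.End (W8 F) where
  toFun l := (Mat (minusQ 3 F a b) l.1 : W8 F →ₗ[F] W8 F).toAddMonoidHom
  map_one' := by
    apply AddMonoidHom.ext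
    intro v
    change Mat (minusQ 3 F a b) 1 v = v
    rw [map_one]
    rfl
  map_mul' l l' := by
    apply AddMonoidHom.ext
    intro v
    change Mat (minusQ 3 F a b) (l.1 * l'.1) v = _
    rw [map_mul]
    rfl

theorem actO_apply (k : L8 a b) (v : W8 F) : actO a b k v = Mat (minusQ 3 F a b) k.1 v := rfl

theorem actO_pow_apply (k : L8 a b) (i : ℕ) (v : W8 F) : actO a b (k ^ i) v = ((Mat (minusQ 3 F a b) k.1) ^ i) v := by
  rw [actO_apply, ← map_pow]
  rfl

theorem sumS_actO (k : L8 a b) (n : ℕ) (v : W8 F) :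
    sumS (actO a b) k n v = ∑ i ∈ Finset.range n, ((Mat (minusQ 3 F a b) k.1) ^ i) v := by
  unfold sumS
  exact Finset.sum_congr rfl fun i _ => actO_pow_apply k i v

theorem two_smul_W (v : W8 F) : 2 • v = 0 := by
  have h3 : (2 : F) = 0 := two_F'
  have h4 : (2 : F) • v = 0 := by rw [h3, zero_smul]
  rwa [two_smul, ← two_nsmul] at h4

/-- **The upper bound.** -/
theorem upper_H (hab : ∀ z₁ z₂ : F, z₁ ^ 2 + a * z₁ * z₂ + b * z₂ ^ 2 = 0 → z₁ = 0 ∧ z₂ = 0) (s : ℕ)
    (x : HS (actO a b) s) : ∃ m ∈ {m | IsL (Fintype.card F) m}, x ^ m = 1 := by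
  set Q₀ := minusQ 3 F a b with hQ₀
  set k : L8 a b := x.right with hk
  have hpn : PolarNondeg Q₀ := polarNondeg_minusQ 3 hab
  have hnd : (polarBilin Q₀).Nondegenerate := nondeg_of_polarNondeg Q₀ hpn
  obtain ⟨A, c', k', hA, hp, hka, hr, N, hN, hdN⟩ := mat_table_iso (ι := (Fin 3 ⊕ Fin 3) ⊕ Fin 2) card_idx Q₀ hpn k.1
  have ho0 : orderOf k ≠ 0 := (orderOf_pos k).ne'
  have hod : orderOf k ∣ 2 ^ c' * A := by
    apply orderOf_dvd_of_pow_eq_one
    apply Subtype.ext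
    apply Subtype.ext
    apply Units.ext
    exact hp
  refine ⟨N, hN, ?_⟩
  by_cases hall : ∀ v, sumS (actO a b) k (orderOf k) v = 0
  · have h1 : x ^ orderOf k = 1 := pow_of_sum x _ (pow_orderOf_eq_one k) hall
    obtain ⟨t, rfl⟩ := hod.trans hdN
    rw [pow_mul, h1, one_pow]
  · push Not at hall
    obtain ⟨v, hv⟩ := hall
    obtain ⟨c, m₀, hm₀, ho⟩ := Nat.exists_eq_two_pow_mul_odd ho0
    set T := Mat Q₀ k.1 with hT
    have hev : Even (finrank F (fixS T)) := (mem_omega_iff_even Q₀ hnd card_idx k.1).1 k.2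
    have hTo : T ^ orderOf k = 1 := by
      rw [hT, ← map_pow]
      have : k.1 ^ orderOf k = 1 := by
        have h3 := pow_orderOf_eq_one k
        exact congrArg Subtype.val h3
      rw [this, map_one]
    rw [sumS_actO] at hv
    have hmult := mult_gt T hev ho hTo v hv
    let M₀ : Matrix ((Fin 3 ⊕ Fin 3) ⊕ Fin 2) ((Fin 3 ⊕ Fin 3) ⊕ Fin 2) F :=
      ((k.1 : GL ((Fin 3 ⊕ Fin 3) ⊕ Fin 2) F) : Matrix ((Fin 3 ⊕ Fin 3) ⊕ Fin 2) ((Fin 3 ⊕ Fin 3) ⊕ Fin 2) F)
    have hTe : T = Matrix.toLin' M₀ := by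
      apply LinearMap.ext
      intro y
      rfl
    have hch : T.charpoly = M₀.charpoly := by
      rw [hTe]
      exact Matrix.charpoly_toLin' _
    rw [hch, hr] at hmult
    have hcc : c < c' := (Nat.pow_lt_pow_iff_right (by norm_num : 1 < 2)).1 (lt_of_lt_of_le hmult hka)
    have hm₀A : m₀ ∣ A := by
      have h3 : m₀ ∣ 2 ^ c' * A := (Dvd.intro_left _ ho.symm).trans hod
      exact (Nat.Coprime.dvd_of_dvd_mul_left (cop_odd_two hm₀ c') h3)
    have h2o : orderOf k * 2 ∣ N := by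
      refine dvd_trans ?_ hdN
      rw [ho, show 2 ^ c * m₀ * 2 = 2 ^ (c + 1) * m₀ by ring]
      exact mul_dvd_mul (pow_dvd_pow _ hcc) hm₀A
    have h1 : x ^ (orderOf k * 2) = 1 := pow_of_exp two_smul_W x _ (pow_orderOf_eq_one k)
    obtain ⟨t, rfl⟩ := h2o
    rw [pow_mul, h1, one_pow]

/-- The elements of the list from blocks with even fixed spaces. -/
theorem real_for_H {m : ℕ} (hm : IsL (Fintype.card F) m) :
    (∃ p, Even p ∧ Real F 4 (-(Fintype.card F : ℤ) ^ 4) m p False) ∨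
    (∃ o p, Even p ∧ m = 2 * o ∧ Real F 4 (-(Fintype.card F : ℤ) ^ 4) o p True) := by
  have hq : Even (Fintype.card F) := even_card
  have h2 : 2 ≤ Fintype.card F := Fintype.one_lt_card
  obtain ⟨r, hr⟩ := exists_sgM (F := F)
  have hr0 := sgP (F := F)
  set q := Fintype.card F with hqdef
  rcases hm with rfl | rfl | rfl | rfl | rfl | rfl | rfl | rfl | rfl | rfl | rfl | rfl
  · exact Or.inl ⟨0, by norm_num, at_minus 4 (by norm_num)⟩
  · refine Or.inl ⟨0 + 0, by norm_num, ((at_minus (F := F) 2 (by norm_num)).sumC (at_plus 2 (by norm_num)) (cop_two_two hq h2).symm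
      (fun h => h.elim)).congr rfl (by ring) ?_⟩
    rw [qu1 h2, mul_comm]
  · refine Or.inl ⟨0 + 0, by norm_num, ((at_plus (F := F) 3 (by norm_num)).sumC (at_minus 1 (by norm_num)) (by simpa using cop_three_m hq h2)
      (fun h => h.elim)).congr rfl (by ring) (by simp [hqdef])⟩
  · refine Or.inl ⟨0 + 0, by norm_num, ((at_minus (F := F) 3 (by norm_num)).sumC (at_plus 1 (by norm_num)) (by simpa using cop_three_p hq h2)
      (fun h => h.elim)).congr rfl (by ring) (by simp [hqdef])⟩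
  · refine Or.inr ⟨q ^ 3 - 1, 0 + 0, by norm_num, rfl, ((at_id hr).sumC (at_plus (F := F) 3 (by norm_num)) (by simp)
      (fun _ => ⟨trivial, odd_pm hq h2 (by norm_num)⟩)).congr rfl (by ring) (by simp [hqdef])⟩
  · refine Or.inr ⟨q ^ 3 + 1, 0 + 0, by norm_num, rfl, ((at_id hr0).sumC (at_minus (F := F) 3 (by norm_num)) (by simp)
      (fun _ => ⟨trivial, odd_pp hq h2 (by norm_num)⟩)).congr rfl (by ring) (by simp [hqdef])⟩
  · have h1 := (at_minus (F := F) 2 (by norm_num)).sumC (at_minus 1 (by norm_num))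
      (by simpa using cop_sq_p hq h2) (b := False) (fun h => h.elim)
    have hodd : Odd ((q ^ 2 + 1) * (q ^ 1 + 1)) :=
      (odd_pp hq h2 (by norm_num)).mul (odd_pp hq h2 (by norm_num))
    refine Or.inr ⟨(q ^ 2 + 1) * (q + 1), 0 + (0 + 0), by norm_num, rfl, ((at_id hr).sumC h1 (by simp)
      (fun _ => ⟨trivial, hodd⟩)).congr rfl (by ring) (by simp [hqdef])⟩
  · have h1 := (at_minus (F := F) 2 (by norm_num)).sumC (at_plus 1 (by norm_num))
      (by simpa using cop_sq_m hq h2) (b := False) (fun h => h.elim)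
    have hodd : Odd ((q ^ 2 + 1) * (q ^ 1 - 1)) :=
      (odd_pp hq h2 (by norm_num)).mul (odd_pm hq h2 (by norm_num))
    refine Or.inr ⟨(q ^ 2 + 1) * (q - 1), 0 + (0 + 0), by norm_num, rfl, ((at_id hr0).sumC h1 (by simp)
      (fun _ => ⟨trivial, hodd⟩)).congr rfl (by ring) (by simp [hqdef])⟩
  · -- `4 (q² + 1)`: `J₂ ⊕ J₂` on a plus form and the torus of order `q² + 1`
    have hodd : Odd (q ^ 2 + 1) := odd_pp hq h2 (by norm_num)
    have h1 := (at_J2 hr0).sumC (at_minus (F := F) 2 (by norm_num))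
      (by simpa using cop_two_odd hodd 1) (b := False) (fun h => h.elim)
    have h3 := (at_J2 hr0).sum h1 (b := True) (fun _ => ⟨trivial, q ^ 2 + 1, hodd, Nat.lcm_eq_right (dvd_mul_right _ _)⟩)
    rw [Nat.lcm_eq_right (dvd_mul_right _ _)] at h3
    refine Or.inr ⟨2 * (q ^ 2 + 1), 1 + (1 + 0), by decide, by ring, h3.congr rfl (by ring) rfl⟩
  · -- `4 (q² - 1)`
    have hodd : Odd (q ^ 2 - 1) := odd_pm hq h2 (by norm_num)
    have h1 := (at_J2 hr).sumC (at_plus (F := F) 2 (by norm_num))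
      (by simpa using cop_two_odd hodd 1) (b := False) (fun h => h.elim)
    have h3 := (at_J2 hr0).sum h1 (b := True) (fun _ => ⟨trivial, q ^ 2 - 1, hodd, Nat.lcm_eq_right (dvd_mul_right _ _)⟩)
    rw [Nat.lcm_eq_right (dvd_mul_right _ _)] at h3
    refine Or.inr ⟨2 * (q ^ 2 - 1), 1 + (1 + 0), by decide, by ring, h3.congr rfl (by ring) rfl⟩
  · -- `8 (q + 1)`
    have hodd : Odd (q ^ 1 + 1) := odd_pp hq h2 (by norm_num)
    have h1 := (at_J2 hr0).sumC (at_minus (F := F) 1 (by norm_num))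
      (by simpa using cop_two_odd hodd 1) (b := False) (fun h => h.elim)
    have hl : Nat.lcm 4 (2 * (q ^ 1 + 1)) = 4 * (q ^ 1 + 1) := by
      have hc : Nat.Coprime 2 (q ^ 1 + 1) := Nat.coprime_two_left.2 hodd
      rw [show (4 : ℕ) = 2 * 2 by norm_num, Nat.lcm_mul_left, Nat.Coprime.lcm_eq_mul hc]
      ring
    have h3 := (at_J4 hr0).sum h1 (b := True) (fun _ => ⟨trivial, q ^ 1 + 1, hodd, hl⟩)
    rw [hl] at h3
    refine Or.inr ⟨4 * (q ^ 1 + 1), 1 + (1 + 0), by decide, by simp only [pow_one]; ring, h3.congr rfl (by ring) rfl⟩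
  · -- `8 (q - 1)`
    have hodd : Odd (q ^ 1 - 1) := odd_pm hq h2 (by norm_num)
    have h1 := (at_J2 hr).sumC (at_plus (F := F) 1 (by norm_num))
      (by simpa using cop_two_odd hodd 1) (b := False) (fun h => h.elim)
    have hl : Nat.lcm 4 (2 * (q ^ 1 - 1)) = 4 * (q ^ 1 - 1) := by
      have hc : Nat.Coprime 2 (q ^ 1 - 1) := Nat.coprime_two_left.2 hodd
      rw [show (4 : ℕ) = 2 * 2 by norm_num, Nat.lcm_mul_left, Nat.Coprime.lcm_eq_mul hc]
      ring
    have h3 := (at_J4 hr0).sum h1 (b := True) (fun _ => ⟨trivial, q ^ 1 - 1, hodd, hl⟩)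
    rw [hl] at h3
    refine Or.inr ⟨4 * (q ^ 1 - 1), 1 + (1 + 0), by decide, by simp only [pow_one]; ring, h3.congr rfl (by ring) rfl⟩

/-- **The lower bound.** -/
theorem lower_H (hab : ∀ z₁ z₂ : F, z₁ ^ 2 + a * z₁ * z₂ + b * z₂ ^ 2 = 0 → z₁ = 0 ∧ z₂ = 0) (s : ℕ) (hs : 1 ≤ s)
    (m : ℕ) (hm : m ∈ {m | IsL (Fintype.card F) m}) : ∃ x : HS (actO a b) s, orderOf x = m := by
  set Q₀ := minusQ 3 F a b with hQ₀
  have hpn : PolarNondeg Q₀ := polarNondeg_minusQ 3 hab
  have hnd : (polarBilin Q₀).Nondegenerate := nondeg_of_polarNondeg Q₀ hpn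
  have hmemO : ∀ (g : ↥(isometryGroup F (⇑Q₀))) (p : ℕ), Even p → finrank F (fixS (Mat Q₀ g)) % 2 = p % 2 →
      g ∈ Cfsg.Omega F (⇑Q₀) := by
    intro g p hp hg
    refine (mem_omega_iff_even Q₀ hnd card_idx g).2 ?_
    rw [Nat.even_iff] at hp ⊢
    omega
  rcases real_for_H hm with ⟨p, hp, h⟩ | ⟨o, p, hp, rfl, h⟩
  · obtain ⟨g, hg, hpar, -⟩ := real_to_iso hab h
    let k : L8 a b := ⟨g, hmemO g p hp hpar⟩
    refine ⟨SemidirectProduct.inr k, ?_⟩
    rw [orderOf_inr, Subgroup.orderOf_mk, hg]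
  · obtain ⟨g, hg, hpar, hdbl⟩ := real_to_iso hab h
    let k : L8 a b := ⟨g, hmemO g p hp hpar⟩
    have hk : orderOf k = o := by
      rw [Subgroup.orderOf_mk, hg]
    obtain ⟨v, hv⟩ := hdbl trivial
    refine ⟨elt (actO a b) s v k, ?_⟩
    rw [orderOf_elt_double hs two_smul_W, hk]
    rw [sumS_actO, hk]
    exact hv

/-- **A family of groups of unbounded order with the listed spectrum.** -/
theorem exists_H (hab : ∀ z₁ z₂ : F, z₁ ^ 2 + a * z₁ * z₂ + b * z₂ ^ 2 = 0 → z₁ = 0 ∧ z₂ = 0) (N : ℕ) :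
    ∃ (H : Type) (_ : _root_.Group H) (_ : Fintype H), N < Fintype.card H ∧
      Set.range (orderOf : H → ℕ) = {n | ∃ m ∈ {m | IsL (Fintype.card F) m}, n ∣ m} :=
  package (actO a b) {m | IsL (Fintype.card F) m} (upper_H hab) (lower_H hab) N

end Group

section Final

universe u

variable {F : Type u} [Field F] [Fintype F] [CharP F 2]

theorem ani_hab {r : F} (hr : Ani r) :
    ∀ z₁ z₂ : F, z₁ ^ 2 + 1 * z₁ * z₂ + (r * r) * z₂ ^ 2 = 0 → z₁ = 0 ∧ z₂ = 0 := by
  intro z₁ z₂ h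
  by_cases h2 : z₂ = 0
  · subst h2
    simp only [ne_eq, OfNat.ofNat_ne_zero, not_false_eq_true, zero_pow, mul_zero, add_zero] at h
    exact ⟨by simpa using h, rfl⟩
  · exfalso
    apply hr (z₁ / z₂)
    field_simp
    linear_combination h

/-- **The spectrum of `Sp₈(q)`, `q` even.** -/
theorem psp_range : Set.range (orderOf : Cfsg.PSp 4 F → ℕ) = {n | ∃ m ∈ {m | IsL (Fintype.card F) m}, n ∣ m} := by
  ext n
  constructor
  · rintro ⟨z, rfl⟩
    exact psp_order_dvd z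
  · rintro ⟨m, hm, hn⟩
    obtain ⟨p, hp⟩ := real_of_isL hm
    obtain ⟨r, hr⟩ := exists_ani (F := F)
    obtain ⟨g, hg, -⟩ := real_to_iso (ani_hab hr) hp
    obtain ⟨z, hz⟩ := exists_psp_of_form (minusQ 3 F 1 (r * r)) (polarNondeg_minusQ 3 (ani_hab hr)) g
    rw [hg] at hz
    subst hz
    exact ⟨z ^ (orderOf z / n), orderOf_pow_orderOf_div (orderOf_pos z).ne' hn⟩

/-- **S3590.** -/
theorem s3590_main (M : ℕ) :
    ∃ (H : Type) (_ : _root_.Group H) (_ : Fintype H), M < Fintype.card H ∧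
      Set.range (orderOf : H → ℕ) = Set.range (orderOf : Cfsg.PSp 4 F → ℕ) := by
  haveI : Fact (Nat.Prime 2) := ⟨Nat.prime_two⟩
  obtain ⟨r', hpr, hF⟩ := FiniteField.card F 2
  have hr : (r' : ℕ) ≠ 0 := r'.ne_zero
  set r : ℕ := (r' : ℕ)
  let E := GaloisField 2 r
  have hcard := GaloisField.card 2 r hr
  haveI : Finite E := Nat.finite_of_card_ne_zero (by
    rw [hcard]
    positivity)
  letI : Fintype E := Fintype.ofFinite E
  have hE : Fintype.card E = Fintype.card F := by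
    rw [hF, ← Nat.card_eq_fintype_card, hcard]
  obtain ⟨ρ, hρ⟩ := exists_ani (F := E)
  obtain ⟨H, i1, i2, h1, h2⟩ := exists_H (ani_hab hρ) M
  refine ⟨H, i1, i2, h1, ?_⟩
  rw [h2, psp_range, hE]

end Final

end Cfsg.Agent.Lib.SpEight
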